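import Cfsg.Agent.H378.TorDual

/-!
# Isometries of a lattice with `det (1 - A)` prime (helper811)

* `no_det_prime` : `Aᵀ C A = C`, `C` symmetric and invertible mod the odd prime `p`; then `|det (1 - A)| ≠ p`.
-/

set_option autoImplicit false

namespace Cfsg.Agent.H811.Spr.Iso5

open Matrix Cfsg.Agent.H378.TorDual

section

variable {n : Type*} [Fintype n] [DecidableEq n] {A C : Matrix n n ℤ}

theorem eq_one (hA : Aᵀ * C * A = C) : (1 - A)ᵀ * C * A = -(C * (1 - A)) := by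
  rw [transpose_sub, transpose_one, sub_mul, sub_mul, one_mul, hA, mul_sub, mul_one]
  abel

theorem eq_adj : A * (1 - A).adjugate = (1 - A).adjugate - (1 - A).det • (1 : Matrix n n ℤ) := by
  have h := mul_adjugate (1 - A)
  rw [sub_mul, one_mul] at h
  rw [← h]
  abel

theorem eq_two (hA : Aᵀ * C * A = C) :
    (1 - A)ᵀ * C * (1 - A).adjugate = -((1 - A).det • (Aᵀ * C)) := by
  have h1 : (1 - A)ᵀ * C * (A * (1 - A).adjugate) = -((1 - A).det • C) := by
    rw [← Matrix.mul_assoc, eq_one hA, neg_mul, Matrix.mul_assoc, mul_adjugate, Matrix.mul_smul, mul_one]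
  rw [eq_adj, mul_sub, Matrix.mul_smul, mul_one, sub_eq_iff_eq_add] at h1
  rw [h1, transpose_sub, transpose_one, sub_mul, one_mul, smul_sub]
  abel

theorem eq_three (hA : Aᵀ * C * A = C) (hd : (1 - A).det ≠ 0) :
    (1 - A).adjugateᵀ * C + C * (1 - A).adjugate = (1 - A).det • C := by
  have h1 : (1 - A).adjugateᵀ * ((1 - A)ᵀ * C * (1 - A).adjugate) = (1 - A).det • (C * (1 - A).adjugate) := by
    rw [← Matrix.mul_assoc, ← Matrix.mul_assoc, ← transpose_mul, mul_adjugate, transpose_smul, transpose_one,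
      Matrix.smul_mul, Matrix.smul_mul, one_mul]
  have h2 : (1 - A).adjugateᵀ * Aᵀ = (1 - A).adjugateᵀ - (1 - A).det • (1 : Matrix n n ℤ) := by
    rw [← transpose_mul, eq_adj, transpose_sub, transpose_smul, transpose_one]
  rw [eq_two hA, mul_neg, Matrix.mul_smul, ← Matrix.mul_assoc, h2, sub_mul, Matrix.smul_mul, one_mul, ← smul_neg] at h1
  have h3 := smul_right_injective (Matrix n n ℤ) hd h1
  rw [← h3]
  abel

end

variable {l : ℕ} {A C B : Matrix (Fin l) (Fin l) ℤ}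

theorem no_det_prime (hC : Cᵀ = C) (hA : Aᵀ * C * A = C) (hB : B * C = 1) {p : ℕ} (hp : p.Prime) (hp2 : p ≠ 2) :
    (1 - A).det.natAbs ≠ p := by
  intro hd
  have hd0 : (1 - A).det ≠ 0 := by
    intro h0
    rw [h0, Int.natAbs_zero] at hd
    exact hp.ne_zero hd.symm
  have hpd : (p : ℤ) ∣ (1 - A).det := by rw [← hd]; exact Int.natAbs_dvd.2 dvd_rfl
  have hdp : (1 - A).det ∣ (p : ℤ) := by rw [← hd]; exact Int.dvd_natAbs.2 dvd_rfl
  obtain ⟨f, hf⟩ : ∃ f : Module.End ℤ (Fin l → ℤ), f = Matrix.toLin' (1 - A) := ⟨_, rfl⟩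
  have hfd : LinearMap.det f = (1 - A).det := by rw [hf, LinearMap.det_toLin']
  have hcard : Nat.card (Co f) = p := by rw [card_co (by rwa [hfd]), hfd, hd]
  have hpf : Fact p.Prime := ⟨hp⟩
  have hcyc : IsAddCyclic (Co f) := isAddCyclic_of_prime_card hcard
  obtain ⟨g, hg⟩ := hcyc.exists_zsmul_surjective
  obtain ⟨y, rfl⟩ := (LinearMap.range f).mkQ_surjective g
  have hfx : ∀ x, f x = (1 - A) *ᵥ x := fun x => by rw [hf, Matrix.toLin'_apply]
  -- every vector is `k y + (1 - A) z`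
  have hgen : ∀ x : Fin l → ℤ, ∃ (k : ℤ) (z : Fin l → ℤ), x = k • y + (1 - A) *ᵥ z := by
    intro x
    obtain ⟨k, hk⟩ := hg ((LinearMap.range f).mkQ x)
    have hk' : k • (LinearMap.range f).mkQ y = (LinearMap.range f).mkQ x := hk
    rw [← map_zsmul] at hk'
    have h1 := (Submodule.Quotient.eq (LinearMap.range f)).1 hk'.symm
    obtain ⟨z, hz⟩ := h1
    refine ⟨k, z, ?_⟩
    rw [← hfx, hz]
    abel
  obtain ⟨N, hN⟩ : ∃ N, N = (1 - A).adjugate := ⟨_, rfl⟩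
  obtain ⟨d, hdd⟩ : ∃ d, d = (1 - A).det := ⟨_, rfl⟩
  have h3 := eq_three hA hd0
  have h2 := eq_two hA
  have h1 := mul_adjugate (1 - A)
  rw [← hN, ← hdd] at h1 h2 h3
  rw [← hdd] at hpd hdp hd0
  -- `p ∣ yᵀ C N y`
  have hy : (p : ℤ) ∣ y ⬝ᵥ (C * N) *ᵥ y := by
    have h4 : y ⬝ᵥ (Nᵀ * C) *ᵥ y = y ⬝ᵥ (C * N) *ᵥ y := by
      rw [Matrix.dotProduct_mulVec, ← Matrix.mulVec_transpose, transpose_mul, transpose_transpose, hC,
        dotProduct_comm]
    have h5 : y ⬝ᵥ (Nᵀ * C + C * N) *ᵥ y = d * (y ⬝ᵥ C *ᵥ y) := by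
      rw [h3, Matrix.smul_mulVec, dotProduct_smul, smul_eq_mul]
    rw [add_mulVec, dotProduct_add, h4, ← two_mul] at h5
    have h6 : (p : ℤ) ∣ 2 * (y ⬝ᵥ (C * N) *ᵥ y) := by
      rw [h5]
      exact hpd.mul_right _
    rcases (Nat.prime_iff_prime_int.1 hp).dvd_or_dvd h6 with h7 | h7
    · exfalso
      have h8 : p ∣ 2 := by exact_mod_cast h7
      exact hp2 ((Nat.prime_dvd_prime_iff_eq hp Nat.prime_two).1 h8)
    · exact h7
  have hx : ∀ x : Fin l → ℤ, (p : ℤ) ∣ x ⬝ᵥ (C * N) *ᵥ y := by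
    intro x
    obtain ⟨k, z, hk⟩ := hgen x
    rw [hk, add_dotProduct, smul_dotProduct]
    refine dvd_add (hy.mul_left k) ?_
    have h4 : ((1 - A) *ᵥ z) ⬝ᵥ (C * N) *ᵥ y = z ⬝ᵥ ((1 - A)ᵀ * C * N) *ᵥ y := by
      rw [Matrix.mul_assoc, ← Matrix.mulVec_mulVec y (1 - A)ᵀ (C * N), Matrix.dotProduct_mulVec z,
        Matrix.vecMul_transpose]
    rw [h4, h2, neg_mulVec, Matrix.smul_mulVec, dotProduct_neg, dotProduct_smul, smul_eq_mul]
    exact (hpd.mul_right _).neg_right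
  -- `p ∣ N y`
  have hNy : ∀ i, (p : ℤ) ∣ (N *ᵥ y) i := by
    intro i
    have h4 := hx (Pi.single i 1 ᵥ* B)
    rw [← Matrix.dotProduct_mulVec, Matrix.mulVec_mulVec, ← Matrix.mul_assoc, hB, one_mul] at h4
    rwa [single_dotProduct, one_mul] at h4
  have hNz : ∃ z : Fin l → ℤ, N *ᵥ y = d • z := by
    have h4 : ∀ i, ∃ c, (N *ᵥ y) i = d * c := fun i => hdp.trans (hNy i)
    choose z hz using h4
    exact ⟨z, funext fun i => by rw [hz i, Pi.smul_apply, smul_eq_mul]⟩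
  obtain ⟨z, hz⟩ := hNz
  have h5 : (1 - A) *ᵥ (N *ᵥ y) = d • y := by
    rw [Matrix.mulVec_mulVec, h1, Matrix.smul_mulVec, one_mulVec]
  rw [hz, Matrix.mulVec_smul] at h5
  have h6 := smul_right_injective (Fin l → ℤ) hd0 h5
  have h7 : (LinearMap.range f).mkQ y = 0 := by
    rw [Submodule.mkQ_apply, Submodule.Quotient.mk_eq_zero]
    exact ⟨z, by rw [hfx]; exact h6⟩
  have h8 : Subsingleton (Co f) := by
    refine ⟨fun a b => ?_⟩
    obtain ⟨k, rfl⟩ := hg a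
    obtain ⟨k', rfl⟩ := hg b
    show k • (LinearMap.range f).mkQ y = k' • (LinearMap.range f).mkQ y
    rw [h7, smul_zero, smul_zero]
  rw [Nat.card_of_subsingleton ((LinearMap.range f).mkQ y)] at hcard
  exact hp.one_lt.ne hcard

end Cfsg.Agent.H811.Spr.Iso5
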