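import Cfsg.Agent.ClassicalGeometry.GUBasic
import Cfsg.Agent.H127.UnitSinger
import Cfsg.Agent.H436.Names

/-!
# The torus of order `(q² - 1) / 3` of `PSU₃(q)` (helper811)

* `exists_psu_three` : `N ∣ k` whenever `q² - 1 ∣ 3 k`; then `PSU₃(q)` has an element of order `N`;
* `exists_341` : `U₃(32)` has an element of order 341.
-/

set_option autoImplicit false

namespace Cfsg.Agent.H811.Spr

open Matrix Cfsg Cfsg.Agent.H186 Cfsg.Agent.H436 Cfsg.Agent.H127 Cfsg.Agent.ClassicalGeometry.GUBasic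

theorem exists_psu_three {F : Type*} [Field F] [Fintype F] {q : ℕ} (hF : Fintype.card F = q ^ 2) {N : ℕ}
    (hN : ∀ k : ℕ, q ^ 2 - 1 ∣ 3 * k → N ∣ k) : ∃ z : Cfsg.PSU 3 F q, orderOf z = N := by
  have hq := two_le hF
  obtain ⟨y, hy⟩ := IsCyclic.exists_generator (α := Fˣ)
  have hordy : orderOf y = q ^ 2 - 1 := by
    rw [orderOf_eq_card_of_forall_mem_zpowers hy, Nat.card_units, Nat.card_eq_fintype_card, hF]
  obtain ⟨j, hj⟩ : ∃ j, q = j + 1 := ⟨q - 1, by omega⟩
  have hq1 : q ^ 2 - 1 + 1 = q ^ 2 := Nat.sub_add_cancel (Nat.one_le_pow _ _ (by omega))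
  have hyq : y ^ q ^ 2 = y := by
    rw [← hq1, pow_succ, ← hordy, pow_orderOf_eq_one, one_mul]
  have hyj : y ^ (j * (q + 1)) = 1 := by
    have h1 : j * (q + 1) + 1 = q ^ 2 := by rw [hj]; ring
    have h2 : y ^ (j * (q + 1)) * y = y := by rw [← pow_succ, h1, hyq]
    exact mul_eq_right.1 h2
  obtain ⟨d, hd⟩ : ∃ d : Fin 3 → Fˣ, d = ![y, (y ^ q)⁻¹, y ^ j] := ⟨_, rfl⟩
  have d0 : d 0 = y := by rw [hd]; rfl
  have d1 : d 1 = (y ^ q)⁻¹ := by rw [hd]; rfl
  have d2 : d 2 = y ^ j := by rw [hd]; rfl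
  obtain ⟨x, hx⟩ : ∃ x : Matrix (Fin 3) (Fin 3) F, x = !![0, 1, 0; 1, 0, 0; 0, 0, 1] := ⟨_, rfl⟩
  have hxx : x * x = 1 := by
    rw [hx]
    ext a b
    fin_cases a <;> fin_cases b <;> simp [Matrix.mul_apply, Fin.sum_univ_succ]
  have hst : st q (diagonal fun i => (d i : F)) = diagonal fun i => (d i : F) ^ q := by
    ext a b
    rw [st_apply]
    by_cases hab : a = b
    · subst hab
      rw [diagonal_apply_eq, diagonal_apply_eq]
    · rw [diagonal_apply_ne _ (Ne.symm hab), diagonal_apply_ne _ hab, zero_pow (by omega)]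
  have hdet : (diagonal fun i => (d i : F)).det = 1 := by
    rw [det_diagonal, Fin.prod_univ_three, ← Units.val_mul, ← Units.val_mul, d0, d1, d2]
    rw [Units.val_eq_one, hj, pow_succ, _root_.mul_inv_rev]
    simp
  refine UnitSinger.exists_order hF le_rfl (diagonal fun i => (d i : F)) x (IsUnit.of_mul_eq_one _ hxx) hdet ?_ ?_ N
    dvd_rfl
  · rw [hst]
    ext a b
    rw [mul_diagonal, diagonal_mul]
    have e01 : (d 0 : F) ^ q * (d 1 : F) = 1 := by
      rw [← Units.val_pow_eq_pow_val, ← Units.val_mul, d0, d1, mul_inv_cancel, Units.val_one]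
    have e10 : (d 1 : F) ^ q * (d 0 : F) = 1 := by
      rw [← Units.val_pow_eq_pow_val, ← Units.val_mul, d0, d1, inv_pow, ← pow_mul, ← sq, hyq, inv_mul_cancel,
        Units.val_one]
    have e22 : (d 2 : F) ^ q * (d 2 : F) = 1 := by
      rw [← pow_succ, ← Units.val_pow_eq_pow_val, d2, ← pow_mul, hyj, Units.val_one]
    rw [hx]
    fin_cases a <;> fin_cases b <;> simp [e01, e10, e22]
  · intro k c hk
    apply hN
    rw [diagonal_pow, smul_one_eq_diagonal] at hk
    have hk' : ∀ i, (d i : F) ^ k = c := fun i => congrFun (diagonal_injective hk) i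
    have h1 : (d 0) ^ k = (d 1) ^ k := Units.ext (by
      rw [Units.val_pow_eq_pow_val, Units.val_pow_eq_pow_val, hk' 0, hk' 1])
    have h2 : (d 0) ^ k = (d 2) ^ k := Units.ext (by
      rw [Units.val_pow_eq_pow_val, Units.val_pow_eq_pow_val, hk' 0, hk' 2])
    rw [d0, d1, inv_pow, ← pow_mul] at h1
    rw [d0, d2, ← pow_mul] at h2
    -- `y ^ (q k) = y ^ (-k)`, `y ^ k = y ^ ((q - 1) k)`
    have h3 : y ^ (q * k) = y ^ (2 * k) := by
      rw [hj, add_mul, one_mul, pow_add, ← h2, two_mul, pow_add]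
    rw [h3] at h1
    rw [← hordy]
    apply orderOf_dvd_of_pow_eq_one
    rw [show 3 * k = k + 2 * k by ring, pow_add]
    exact mul_eq_one_iff_eq_inv.2 h1

/-- **`U₃(32)` has an element of order 341.** -/
theorem exists_341 {S : Type*} [Group S] (h : IsNamed (.psu 3 (2 ^ 5)) S) : ∃ x : S, orderOf x = 341 := by
  obtain ⟨F, _, _, hF, ⟨e⟩⟩ := h.real
  obtain ⟨z, hz⟩ := exists_psu_three hF (N := 341) (by intro k hk; omega)
  exact ⟨e.symm z, by rw [MulEquiv.orderOf_eq, hz]⟩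

end Cfsg.Agent.H811.Spr
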